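import Mathlib
import Cfsg.Agent.ConjPSub

/-!
The number of subgroups of order `p ^ 2` of an elementary abelian group.
-/

set_option autoImplicit false
set_option linter.style.haveILetI false

namespace CfsgLib.EqualSubAffine

variable (A : Type*) [CommGroup A] [Finite A] (p : ℕ) [hp : Fact p.Prime]

/-- Ordered independent pairs. -/
def Pairs : Type _ := {x : A × A // x.1 ≠ 1 ∧ x.2 ∉ Subgroup.zpowers x.1}

/-- The subgroups of order `p ^ 2`. -/
def Planes : Type _ := {W : Subgroup A // Nat.card W = p ^ 2}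

theorem card_pairs (hexp : ∀ a : A, a ^ p = 1) :
    Nat.card (Pairs A) = (Nat.card A - 1) * (Nat.card A - p) := by
  classical
  haveI := Fintype.ofFinite A
  let e : Pairs A ≃ Σ v : {v : A // v ≠ 1}, {w : A // w ∉ Subgroup.zpowers (v : A)} :=
    { toFun := fun x => ⟨⟨x.1.1, x.2.1⟩, ⟨x.1.2, x.2.2⟩⟩
      invFun := fun y => ⟨(y.1.1, y.2.1), y.1.2, y.2.2⟩
      left_inv := fun _ => rfl
      right_inv := fun _ => rfl }
  have hfib : ∀ v : {v : A // v ≠ 1},
      Nat.card {w : A // w ∉ Subgroup.zpowers (v : A)} = Nat.card A - p := by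
    intro v
    rw [Nat.card_eq_fintype_card, Fintype.card_subtype_compl, ← Nat.card_eq_fintype_card,
      ← Nat.card_eq_fintype_card]
    congr 1
    rw [show Nat.card {w : A // w ∈ Subgroup.zpowers (v : A)} = Nat.card (Subgroup.zpowers (v : A)) from rfl,
      Nat.card_zpowers]
    exact orderOf_eq_prime (hexp _) v.2
  rw [Nat.card_congr e, Nat.card_sigma, Finset.sum_congr rfl (fun v _ => hfib v), Finset.sum_const,
    Finset.card_univ, smul_eq_mul, Fintype.card_subtype_compl, Fintype.card_subtype_eq,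
    ← Nat.card_eq_fintype_card]

theorem card_pair_sup (hexp : ∀ a : A, a ^ p = 1) (x : Pairs A) :
    Nat.card (Subgroup.zpowers x.1.1 ⊔ Subgroup.zpowers x.1.2 : Subgroup A) = p ^ 2 := by
  rw [CfsgLib.ConjPSub.card_sup_zpowers (p := p) _ (hexp _) (by simp [Subgroup.normalizer_eq_top]) x.2.2,
    Nat.card_zpowers, orderOf_eq_prime (hexp _) x.2.1, pow_two]

theorem card_planes_mul (hexp : ∀ a : A, a ^ p = 1) :
    Nat.card (Planes A p) * ((p ^ 2 - 1) * (p ^ 2 - p)) = (Nat.card A - 1) * (Nat.card A - p) := by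
  classical
  haveI : Finite (Planes A p) := Subtype.finite
  haveI := Fintype.ofFinite (Planes A p)
  let f : Pairs A → Planes A p := fun x => ⟨_, card_pair_sup A p hexp x⟩
  have hfib : ∀ W : Planes A p, Nat.card {x : Pairs A // f x = W} = (p ^ 2 - 1) * (p ^ 2 - p) := by
    intro W
    have key : ∀ (v : A) (hv : v ∈ W.1) (w : A) (hw : w ∈ W.1),
        ((⟨v, hv⟩ : W.1) ≠ 1 ∧ (⟨w, hw⟩ : W.1) ∉ Subgroup.zpowers (⟨v, hv⟩ : W.1)) ↔
          (v ≠ 1 ∧ w ∉ Subgroup.zpowers v) := by
      intro v hv w hw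
      refine and_congr (by simp [Subtype.ext_iff]) (not_congr ?_)
      simp only [Subgroup.mem_zpowers_iff, Subtype.ext_iff, SubgroupClass.coe_zpow]
    let e : {x : Pairs A // f x = W} ≃ Pairs W.1 :=
      { toFun := fun x =>
          have hv : x.1.1.1 ∈ W.1 :=
            (congrArg Subtype.val x.2).le (Subgroup.mem_sup_left (Subgroup.mem_zpowers _))
          have hw : x.1.1.2 ∈ W.1 :=
            (congrArg Subtype.val x.2).le (Subgroup.mem_sup_right (Subgroup.mem_zpowers _))
          ⟨(⟨_, hv⟩, ⟨_, hw⟩), (key _ hv _ hw).2 x.1.2⟩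
        invFun := fun y =>
          have hy := (key _ y.1.1.2 _ y.1.2.2).1 y.2
          ⟨⟨((y.1.1 : A), (y.1.2 : A)), hy⟩, Subtype.ext (Subgroup.eq_of_le_of_card_ge
            (sup_le (Subgroup.zpowers_le.2 y.1.1.2) (Subgroup.zpowers_le.2 y.1.2.2))
            (W.2.le.trans (card_pair_sup A p hexp ⟨((y.1.1 : A), (y.1.2 : A)), hy⟩).ge))⟩
        left_inv := fun _ => rfl
        right_inv := fun _ => rfl }
    rw [Nat.card_congr e, card_pairs W.1 p (fun a => Subtype.ext (by rw [SubgroupClass.coe_pow, hexp]; rfl)), W.2]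
  haveI : Finite (Pairs A) := Subtype.finite
  rw [← card_pairs A p hexp, ← Nat.card_congr (Equiv.sigmaFiberEquiv f), Nat.card_sigma,
    Finset.sum_congr rfl (fun W _ => hfib W), Finset.sum_const, Finset.card_univ, smul_eq_mul,
    Nat.card_eq_fintype_card]

end CfsgLib.EqualSubAffine
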