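import Mathlib
import Cfsg.Agent.Hall.Basic

/-!
A solvable group of automorphisms of an elementary group of order `16` or `81` does not have order
divisible by `35` resp. `65`.
-/

set_option autoImplicit false
set_option linter.style.haveILetI false
set_option linter.unusedSectionVars false

namespace CfsgLib.EqualSubAffine

variable {A : Type*} [Group A] [Finite A]

/-- The fixed subgroup of an automorphism. -/
def fixSub (φ : MulAut A) : Subgroup A where
  carrier := {a | φ a = a}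
  one_mem' := map_one φ
  mul_mem' := fun {a b} ha hb => by
    show φ (a * b) = a * b
    rw [map_mul, ha, hb]
  inv_mem' := fun {a} ha => by
    show φ a⁻¹ = a⁻¹
    rw [map_inv, ha]

theorem mem_fixSub {φ : MulAut A} {a : A} : a ∈ fixSub φ ↔ φ a = a := Iff.rfl

theorem fixSub_eq_top {φ : MulAut A} (h : fixSub φ = ⊤) : φ = 1 :=
  MulEquiv.ext fun a => mem_fixSub.1 (h ▸ Subgroup.mem_top a)

/-- Commuting automorphisms preserve each other's fixed subgroups. -/
theorem map_fixSub {φ ψ : MulAut A} (h : φ * ψ = ψ * φ) {a : A} (ha : a ∈ fixSub φ) : ψ a ∈ fixSub φ := by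
  show φ (ψ a) = ψ a
  rw [← MulAut.mul_apply, h, MulAut.mul_apply, ha]

/-- An automorphism of `s`-power order preserving a subgroup of prime order `p ≢ 1 (mod s)` fixes it. -/
theorem fix_of_stable {s p : ℕ} [Fact s.Prime] [Fact p.Prime] (φ : MulAut A) (hφ : IsPGroup s (Subgroup.zpowers φ))
    (C : Subgroup A) (hC : Nat.card C = p) (hst : ∀ a ∈ C, φ a ∈ C) (hps : ¬ p ≡ 1 [MOD s]) :
    C ≤ fixSub φ := by
  classical
  have hst' : ∀ g ∈ Subgroup.zpowers φ, ∀ a ∈ C, g a ∈ C := by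
    intro g hg
    obtain ⟨k, rfl⟩ := (mem_zpowers_iff_mem_range_orderOf.1 hg) |> Finset.mem_image.1 |>.imp fun k h => h.2
    clear hg
    induction k with
    | zero => intro a ha; simpa using ha
    | succ k ih => intro a ha; rw [pow_succ', MulAut.mul_apply]; exact hst _ (ih a ha)
  letI : MulAction (Subgroup.zpowers φ) C :=
    { smul := fun g a => ⟨(g : MulAut A) a, hst' g g.2 a a.2⟩
      one_smul := fun _ => Subtype.ext rfl
      mul_smul := fun _ _ _ => Subtype.ext rfl }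
  have h := hφ.card_modEq_card_fixedPoints C
  rw [hC] at h
  have hne : ∃ a : C, a ≠ 1 ∧ a ∈ MulAction.fixedPoints (Subgroup.zpowers φ) C := by
    by_contra hh
    push Not at hh
    have : MulAction.fixedPoints (Subgroup.zpowers φ) C = {1} := by
      ext a
      refine ⟨fun ha => by_contra fun h1 => hh a h1 ha, ?_⟩
      rintro rfl g
      exact Subtype.ext (map_one (g : MulAut A))
    rw [this, Nat.card_eq_fintype_card] at h
    simp at h
    exact hps h
  obtain ⟨a, ha1, ha⟩ := hne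
  have hgen : Subgroup.zpowers a = ⊤ := zpowers_eq_top_of_prime_card hC ha1
  intro c hc
  obtain ⟨k, hk⟩ := Subgroup.mem_zpowers_iff.1 (show (⟨c, hc⟩ : C) ∈ Subgroup.zpowers a by rw [hgen]; trivial)
  have hc' : c = (a : A) ^ k := by rw [← SubgroupClass.coe_zpow, hk]
  show φ c = c
  rw [hc', map_zpow]
  congr 1
  exact congrArg Subtype.val (ha ⟨φ, Subgroup.mem_zpowers φ⟩)

/-- The possible orders of the fixed subgroup. -/
theorem card_fix {s p : ℕ} [Fact s.Prime] [Fact p.Prime] (hA : Nat.card A = p ^ 4) (φ : MulAut A)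
    (hφ : IsPGroup s (Subgroup.zpowers φ)) (h1 : φ ≠ 1) :
    ∃ k < 4, Nat.card (fixSub φ) = p ^ k ∧ p ^ 4 ≡ p ^ k [MOD s] := by
  classical
  obtain ⟨k, hk, he⟩ := (Nat.dvd_prime_pow (Fact.out : p.Prime)).1 (hA ▸ (fixSub φ).card_subgroup_dvd_card)
  have hk4 : k ≠ 4 := fun h => h1 (fixSub_eq_top ((Subgroup.card_eq_iff_eq_top _).1 (by rw [he, h, hA])))
  refine ⟨k, by omega, he, ?_⟩
  letI : MulAction (Subgroup.zpowers φ) A :=
    { smul := fun g a => (g : MulAut A) a
      one_smul := fun _ => rfl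
      mul_smul := fun _ _ _ => rfl }
  have h := hφ.card_modEq_card_fixedPoints A
  have : MulAction.fixedPoints (Subgroup.zpowers φ) A = (fixSub φ : Set A) := by
    ext a
    refine ⟨fun ha => ha ⟨φ, Subgroup.mem_zpowers φ⟩, fun ha g => ?_⟩
    obtain ⟨j, hj⟩ := Subgroup.mem_zpowers_iff.1 g.2
    have hst : φ ∈ MulAction.stabilizer (MulAut A) a := ha
    show (g : MulAut A) a = a
    have := (MulAction.stabilizer (MulAut A) a).zpow_mem hst j
    rw [hj] at this
    exact this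
  rw [this, hA] at h
  rw [← he]
  exact h

/-- No solvable group of automorphisms has order divisible by `5` and `r`. -/
theorem no_solvable_four {p r : ℕ} [Fact p.Prime] [Fact r.Prime] (hpr : (p = 2 ∧ r = 7) ∨ (p = 3 ∧ r = 13))
    (hA : Nat.card A = p ^ 4) {L0 : Type*} [Group L0] [Finite L0] [Group.IsSolvable L0]
    (ρ : L0 →* MulAut A) (hρ : Function.Injective ρ) (h5 : 5 ∣ Nat.card L0) (hr : r ∣ Nat.card L0) : False := by
  classical
  haveI : Fact (Nat.Prime 5) := ⟨by norm_num⟩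
  have hr5 : r ≠ 5 := by rcases hpr with ⟨-, rfl⟩ | ⟨-, rfl⟩ <;> omega
  have hne : Nat.card L0 ≠ 0 := Nat.card_pos.ne'
  -- the fixed subgroups
  have hfix5 : ∀ x : L0, x ^ 5 = 1 → x ≠ 1 → fixSub (ρ x) = ⊥ := by
    intro x hx hx1
    have hpg : IsPGroup 5 (Subgroup.zpowers (ρ x)) := IsPGroup.of_card (n := 1) (by
      rw [pow_one, Nat.card_zpowers, orderOf_injective ρ hρ, orderOf_eq_prime hx hx1])
    obtain ⟨k, hk, he, hmod⟩ := card_fix hA (ρ x) hpg (fun h => hx1 (hρ (h.trans (map_one ρ).symm)))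
    rw [← Subgroup.card_eq_one, he]
    rcases hpr with ⟨rfl, -⟩ | ⟨rfl, -⟩ <;> interval_cases k <;> first | rfl | (exfalso; revert hmod; decide)
  have hfixr : ∀ y : L0, y ^ r = 1 → y ≠ 1 → Nat.card (fixSub (ρ y)) = p := by
    intro y hy hy1
    have hpg : IsPGroup r (Subgroup.zpowers (ρ y)) := IsPGroup.of_card (n := 1) (by
      rw [pow_one, Nat.card_zpowers, orderOf_injective ρ hρ, orderOf_eq_prime hy hy1])
    obtain ⟨k, hk, he, hmod⟩ := card_fix hA (ρ y) hpg (fun h => hy1 (hρ (h.trans (map_one ρ).symm)))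
    rw [he]
    rcases hpr with ⟨rfl, rfl⟩ | ⟨rfl, rfl⟩ <;> interval_cases k <;> first | rfl | (exfalso; revert hmod; decide)
  have hp5 : ¬ p ≡ 1 [MOD 5] := by rcases hpr with ⟨rfl, -⟩ | ⟨rfl, -⟩ <;> decide
  have hprr : ¬ p ≡ 1 [MOD r] := by rcases hpr with ⟨rfl, rfl⟩ | ⟨rfl, rfl⟩ <;> decide
  have hpg : ∀ (s : ℕ) [Fact s.Prime] (x : L0), x ^ s = 1 → IsPGroup s (Subgroup.zpowers (ρ x)) := by
    intro s _ x hx
    rcases eq_or_ne x 1 with rfl | hx1
    · exact IsPGroup.of_card (n := 0) (by simp)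
    · exact IsPGroup.of_card (n := 1) (by rw [pow_one, Nat.card_zpowers, orderOf_injective ρ hρ, orderOf_eq_prime hx hx1])
  -- no commuting pair
  have nopair : ∀ x y : L0, x ^ 5 = 1 → x ≠ 1 → y ^ r = 1 → y ≠ 1 → x * y = y * x → False := by
    intro x y hx hx1 hy hy1 hc
    have hle := fix_of_stable (s := 5) (p := p) (ρ x) (hpg 5 x hx) (fixSub (ρ y)) (hfixr y hy hy1)
      (fun a ha => map_fixSub (by rw [← map_mul, ← map_mul, hc]) ha) hp5
    rw [hfix5 x hx hx1, le_bot_iff, ← Subgroup.card_eq_one, hfixr y hy hy1] at hle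
    exact (Fact.out : p.Prime).one_lt.ne' hle
  -- a Hall subgroup
  set c := Nat.card L0 with hc
  have hcop : ((ordProj[5] c) * (ordProj[r] (ordCompl[5] c))).Coprime (ordCompl[r] (ordCompl[5] c)) := by
    refine Nat.Coprime.mul_left (Nat.Coprime.pow_left _ ?_) (Nat.Coprime.pow_left _ ?_)
    · refine (Nat.Prime.coprime_iff_not_dvd (by norm_num)).2 fun h => ?_
      exact Nat.not_dvd_ordCompl (by norm_num) hne (h.trans (Nat.ordCompl_dvd _ _))
    · exact Nat.coprime_ordCompl (Fact.out : r.Prime) (Nat.ordCompl_pos 5 hne).ne'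
  obtain ⟨L, hL⟩ := CfsgLib.Hall.exists_hall _ _ (show c = _ from by
    rw [mul_assoc, Nat.ordProj_mul_ordCompl_eq_self, Nat.ordProj_mul_ordCompl_eq_self]) hcop
  have hL5 : 5 ∣ Nat.card L := by
    rw [hL]; exact dvd_mul_of_dvd_left (dvd_pow_self 5 ((Nat.Prime.factorization_pos_of_dvd (by norm_num) hne h5).ne')) _
  have hLr : r ∣ Nat.card L := by
    rw [hL]
    refine dvd_mul_of_dvd_right (dvd_pow_self r (Nat.Prime.factorization_pos_of_dvd (Fact.out) (Nat.ordCompl_pos 5 hne).ne' ?_).ne') _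
    have h' : r ∣ 5 ^ (Nat.card L0).factorization 5 * ordCompl[5] c := by rwa [Nat.ordProj_mul_ordCompl_eq_self]
    refine ((Nat.Prime.dvd_mul Fact.out).1 h').resolve_left fun h => hr5 ?_
    exact (Nat.prime_dvd_prime_iff_eq Fact.out (by norm_num)).1 ((Fact.out : r.Prime).dvd_of_dvd_pow h)
  haveI : Nontrivial L := Finite.one_lt_card_iff_nontrivial.1 (lt_of_lt_of_le (by norm_num) (Nat.le_of_dvd Nat.card_pos hL5))
  obtain ⟨M, hM⟩ := CfsgLib.Hall.exists_isMinNormal (G := L)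
  obtain ⟨s, hs, hMc, hMp, hMe⟩ := hM.elementaryAbelian
  haveI := hM.1
  haveI : Fact s.Prime := ⟨hs⟩
  obtain ⟨j, hj⟩ := IsPGroup.iff_card.1 hMp
  have hj0 : j ≠ 0 := fun h => hM.2.1 (by rw [← Subgroup.card_eq_one, hj, h, pow_zero])
  have hs5r : s = 5 ∨ s = r := by
    have h : s ∣ Nat.card L := (dvd_pow_self s hj0).trans (hj ▸ M.card_subgroup_dvd_card)
    rw [hL] at h
    rcases (Nat.Prime.dvd_mul hs).1 h with h | h
    · exact Or.inl ((Nat.prime_dvd_prime_iff_eq hs (by norm_num)).1 (hs.dvd_of_dvd_pow h))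
    · exact Or.inr ((Nat.prime_dvd_prime_iff_eq hs Fact.out).1 (hs.dvd_of_dvd_pow h))
  have hMe' : ∀ m : M, ((m : L) : L0) ^ s = 1 := fun m => by
    rw [← SubgroupClass.coe_pow, hMe _ m.2]; rfl
  have hMne : ∀ m : M, m ≠ 1 → ((m : L) : L0) ≠ 1 := fun m h e => h (Subtype.ext (Subtype.ext e))
  have hMcomm : ∀ m m' : M, ((m : L) : L0) * ((m' : L) : L0) = ((m' : L) : L0) * ((m : L) : L0) := fun m m' =>
    congrArg (fun z : M => ((z : L) : L0)) (mul_comm' m m')
  -- a common fixed subgroup, the action elsewhere is free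
  obtain ⟨m₀, hm₀⟩ : ∃ m : M, m ≠ 1 := by
    haveI : Nontrivial M := (Subgroup.nontrivial_iff_ne_bot M).2 hM.2.1
    exact exists_ne 1
  set C := fixSub (ρ ((m₀ : L) : L0)) with hCdef
  have hCsame : ∀ m : M, m ≠ 1 → fixSub (ρ ((m : L) : L0)) = C := by
    intro m hm
    rcases hs5r with hs5 | hsr
    · subst hs5
      rw [hCdef, hfix5 _ (hMe' m) (hMne m hm), hfix5 _ (hMe' m₀) (hMne m₀ hm₀)]
    · subst hsr
      refine (Subgroup.eq_of_le_of_card_ge (fix_of_stable (s := s) (p := p) _ (hpg s _ (hMe' m)) C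
        (hfixr _ (hMe' m₀) (hMne m₀ hm₀)) (fun a ha => map_fixSub (by rw [← map_mul, ← map_mul, hMcomm]) ha) hprr) ?_).symm
      rw [hCdef, hfixr _ (hMe' m₀) (hMne m₀ hm₀), hfixr _ (hMe' m) (hMne m hm)]
  let X := {a : A // a ∉ C}
  have hst : ∀ (m : M) (a : A), a ∉ C → ρ ((m : L) : L0) a ∉ C := by
    intro m a ha hb
    rcases eq_or_ne m 1 with rfl | hm
    · exact ha (by simpa using hb)
    rw [← hCsame m hm] at hb ha
    exact ha (mem_fixSub.2 ((ρ ((m : L) : L0)).injective hb))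
  letI : MulAction M X :=
    { smul := fun m a => ⟨ρ ((m : L) : L0) a.1, hst m a.1 a.2⟩
      one_smul := fun a => Subtype.ext (by show ρ _ a.1 = a.1; simp)
      mul_smul := fun m m' a => Subtype.ext (by
        show ρ (((m * m' : M) : L) : L0) a.1 = ρ ((m : L) : L0) (ρ ((m' : L) : L0) a.1)
        rw [Subgroup.coe_mul, Subgroup.coe_mul, map_mul, MulAut.mul_apply]) }
  have hfree : ∀ a : X, MulAction.stabilizer M a = ⊥ := by
    intro a
    rw [Subgroup.eq_bot_iff_forall]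
    intro m hm
    by_contra h1
    exact a.2 ((hCsame m h1).le (mem_fixSub.2 (congrArg Subtype.val hm)))
  have hdvd : Nat.card M ∣ Nat.card A - Nat.card C := by
    haveI := Fintype.ofFinite A
    have e : Nat.card X = Nat.card A - Nat.card C := by
      rw [Nat.card_eq_fintype_card, Fintype.card_subtype_compl, Nat.card_eq_fintype_card, ← Nat.card_eq_fintype_card]
      exact congrArg _ (Nat.card_eq_fintype_card).symm
    rw [← e, Nat.card_congr (MulAction.selfEquivOrbitsQuotientProd hfree), Nat.card_prod]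
    exact dvd_mul_left _ _
  have hj1 : j = 1 := by
    by_contra hh
    have h2 : s ^ 2 ∣ Nat.card M := hj ▸ pow_dvd_pow s (by omega)
    have h3 := h2.trans hdvd
    rw [hA] at h3
    rcases hs5r with hs5 | hsr
    · subst hs5
      rw [hCdef, hfix5 _ (hMe' m₀) (hMne m₀ hm₀), Subgroup.card_bot] at h3
      rcases hpr with ⟨rfl, -⟩ | ⟨rfl, -⟩ <;> norm_num at h3
    · subst hsr
      rw [hCdef, hfixr _ (hMe' m₀) (hMne m₀ hm₀)] at h3
      rcases hpr with ⟨rfl, rfl⟩ | ⟨rfl, rfl⟩ <;> norm_num at h3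
  rw [hj1, pow_one] at hj
  -- an element of the other prime centralises a nontrivial element of `M`
  obtain ⟨t, htf, htL, hts, hcase⟩ : ∃ t : ℕ, t.Prime ∧ t ∣ Nat.card L ∧ ¬ s ≡ 1 [MOD t] ∧
      ((s = 5 ∧ t = r) ∨ (s = r ∧ t = 5)) := by
    rcases hs5r with rfl | rfl
    · exact ⟨r, Fact.out, hLr, by rcases hpr with ⟨-, rfl⟩ | ⟨-, rfl⟩ <;> decide, Or.inl ⟨rfl, rfl⟩⟩
    · exact ⟨5, by norm_num, hL5, by rcases hpr with ⟨-, rfl⟩ | ⟨-, rfl⟩ <;> decide, Or.inr ⟨rfl, rfl⟩⟩
  haveI : Fact t.Prime := ⟨htf⟩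
  obtain ⟨y, hy⟩ := exists_prime_orderOf_dvd_card' (G := L) t htL
  have hy' : ((y : L0)) ^ t = 1 := by rw [← SubgroupClass.coe_pow, ← hy, pow_orderOf_eq_one]; rfl
  have hy1 : (y : L0) ≠ 1 := fun e => by
    rw [show y = 1 from Subtype.ext e, orderOf_one] at hy; exact htf.one_lt.ne hy
  letI : MulAction (Subgroup.zpowers y) M :=
    { smul := fun g m => ⟨(g : L) * m * (g : L)⁻¹, hM.1.conj_mem _ m.2 _⟩
      one_smul := fun m => Subtype.ext (by show (1 : L) * m * (1 : L)⁻¹ = m; simp)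
      mul_smul := fun g g' m => Subtype.ext (by
        show ((g : L) * g') * m * ((g : L) * g')⁻¹ = (g : L) * ((g' : L) * m * (g' : L)⁻¹) * (g : L)⁻¹
        group) }
  have hmod := (IsPGroup.of_card (p := t) (n := 1) (by rw [pow_one, Nat.card_zpowers, hy]) :
    IsPGroup t (Subgroup.zpowers y)).card_modEq_card_fixedPoints M
  rw [hj] at hmod
  obtain ⟨m, hm1, hm⟩ : ∃ m : M, m ≠ 1 ∧ m ∈ MulAction.fixedPoints (Subgroup.zpowers y) M := by
    by_contra hh
    push Not at hh
    have : MulAction.fixedPoints (Subgroup.zpowers y) M = {1} := by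
      ext a
      refine ⟨fun ha => by_contra fun h1 => hh a h1 ha, ?_⟩
      rintro rfl g
      exact Subtype.ext (by show (g : L) * 1 * (g : L)⁻¹ = 1; group)
    rw [this] at hmod
    simp at hmod
    exact hts hmod
  have hcom : ((m : L) : L0) * y = y * ((m : L) : L0) := by
    have h := congrArg (fun z : M => (z : L)) (hm ⟨y, Subgroup.mem_zpowers y⟩)
    have h' : y * (m : L) * y⁻¹ = m := h
    rw [mul_inv_eq_iff_eq_mul] at h'
    exact (congrArg Subtype.val h').symm
  rcases hcase with ⟨rfl, rfl⟩ | ⟨rfl, rfl⟩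
  · exact nopair _ _ (hMe' m) (hMne m hm1) hy' hy1 hcom
  · exact nopair _ _ hy' hy1 (hMe' m) (hMne m hm1) hcom.symm

end CfsgLib.EqualSubAffine
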