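import Cfsg.Agent.EqualSubAffine.Count
import Cfsg.Agent.EqualSubAffine.Four
import Cfsg.Agent.Huppert.Cases
import Cfsg.Prelude.Def_Perm

/-!
Groups `A ⋊ H`, `A` elementary abelian, `H` solvable, transitive on the subgroups of each order of `A`:
they are semiaffine of degree `p ^ 3` or `32`.
-/

set_option autoImplicit false
set_option linter.style.haveILetI false
set_option maxHeartbeats 1000000

namespace CfsgLib.EqualSubAffine

theorem pow_eq_prime_pow {p q n k : ℕ} (hp : p.Prime) (hq : q.Prime) (hn : 0 < n) (h : p ^ n = q ^ k) :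
    p = q ∧ n = k := by
  have h1 : p = q := (Nat.prime_dvd_prime_iff_eq hp hq).1 (hp.dvd_of_dvd_pow (h ▸ dvd_pow_self p hn.ne'))
  subst h1
  exact ⟨rfl, Nat.pow_right_injective hp.two_le h⟩

theorem arith_six {p n : ℕ} (hp : 2 ≤ p) (hn : 6 ≤ n) : n * (p ^ 2 - 1) + 1 < p ^ (n - 1) := by
  obtain ⟨m, rfl⟩ : ∃ m, n = m + 6 := ⟨n - 6, by omega⟩
  have h1 : ∀ m, m + 6 ≤ 2 ^ (m + 3) := by
    intro m
    induction m with
    | zero => norm_num
    | succ m ih => rw [show m + 1 + 3 = (m + 3) + 1 by omega, pow_succ]; omega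
  have h2 : m + 6 ≤ p ^ (m + 3) := (h1 m).trans (Nat.pow_le_pow_left hp _)
  rw [show m + 6 - 1 = 2 + (m + 3) by omega, pow_add]
  calc (m + 6) * (p ^ 2 - 1) + 1 < (m + 6) * (p ^ 2 - 1) + (m + 6) := by omega
    _ = (m + 6) * p ^ 2 := by
        have : 1 ≤ p ^ 2 := Nat.one_le_pow _ _ (by omega)
        rw [← Nat.mul_succ]
        congr 1
        omega
    _ ≤ p ^ 2 * p ^ (m + 3) := by rw [mul_comm]; exact Nat.mul_le_mul_left _ h2

theorem card_ringAut (p n : ℕ) [Fact p.Prime] (hn : n ≠ 0) :
    Nat.card (GaloisField p n ≃+* GaloisField p n) = n := by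
  let e : (GaloisField p n ≃+* GaloisField p n) ≃ (GaloisField p n ≃ₐ[ZMod p] GaloisField p n) :=
    { toFun := fun σ => AlgEquiv.ofRingEquiv (f := σ) (fun x => by
        exact RingHom.congr_fun (RingHom.ext_zmod (σ.toRingHom.comp (algebraMap (ZMod p) (GaloisField p n)))
          (algebraMap (ZMod p) (GaloisField p n))) x)
      invFun := fun φ => φ.toRingEquiv
      left_inv := fun σ => RingEquiv.ext fun _ => rfl
      right_inv := fun φ => AlgEquiv.ext fun _ => rfl }
  rw [Nat.card_congr e, IsGalois.card_aut_eq_finrank, GaloisField.finrank p hn]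

theorem card_semiaffine_le (p n : ℕ) [Fact p.Prime] (hn : n ≠ 0) :
    Nat.card (Cfsg.semiaffineGroup (GaloisField p n)) ≤ (p ^ n - 1) * p ^ n * n := by
  classical
  let R := GaloisField p n
  haveI : Finite (R ≃+* R) := Finite.of_injective (fun σ : R ≃+* R => (σ : R → R)) DFunLike.coe_injective
  let g : Rˣ × R × (R ≃+* R) → Cfsg.semiaffineGroup R := fun x =>
    ⟨((x.2.2.toEquiv.trans (Units.mulLeft x.1)).trans (Equiv.addRight x.2.1) : Equiv.Perm R),
      x.1, x.2.1, x.2.2, fun _ => rfl⟩
  have hg : Function.Surjective g := by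
    rintro ⟨s, a, b, σ, hs⟩
    exact ⟨(a, b, σ), Subtype.ext (Equiv.ext fun x => (hs x).symm)⟩
  refine (Nat.card_le_card_of_surjective g hg).trans (le_of_eq ?_)
  rw [Nat.card_prod, Nat.card_prod, Nat.card_units, GaloisField.card p n hn, card_ringAut p n hn, mul_assoc]

theorem card_affine_le (p n : ℕ) [Fact p.Prime] (hn : n ≠ 0) :
    Nat.card (Cfsg.affineGroup (GaloisField p n)) ≤ (p ^ n - 1) * p ^ n := by
  classical
  let R := GaloisField p n
  let g : Rˣ × R → Cfsg.affineGroup R := fun x =>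
    ⟨((Units.mulLeft x.1).trans (Equiv.addRight x.2) : Equiv.Perm R), x.1, x.2, fun _ => rfl⟩
  have hg : Function.Surjective g := by
    rintro ⟨s, a, b, hs⟩
    exact ⟨(a, b), Subtype.ext (Equiv.ext fun x => (hs x).symm)⟩
  refine (Nat.card_le_card_of_surjective g hg).trans (le_of_eq ?_)
  rw [Nat.card_prod, Nat.card_units, GaloisField.card p n hn]

/-- An injective homomorphism into a group no larger is an isomorphism. -/
theorem nonempty_mulEquiv {X Y : Type*} [Group X] [Group Y] [Finite Y] (f : X →* Y) (hf : Function.Injective f)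
    (h : Nat.card Y ≤ Nat.card X) : Nonempty (X ≃* Y) := by
  haveI : Finite X := Finite.of_injective f hf
  exact ⟨MulEquiv.ofBijective f ((Nat.bijective_iff_injective_and_card f).2
    ⟨hf, le_antisymm (Nat.card_le_card_of_injective f hf) h⟩)⟩

section Main

variable {Q : Type*} [Group Q] [Finite Q] {p : ℕ} [hp : Fact p.Prime]

theorem main {n : ℕ} (hn : 3 ≤ n) (A : Subgroup Q) [A.Normal] (hAc : IsMulCommutative A)
    (hexp : ∀ a ∈ A, a ^ p = 1) (hcard : Nat.card A = p ^ n) (hcop : (Nat.card A).Coprime A.index)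
    (hsolv : Group.IsSolvable Q) (hself : ∀ q : Q, (∀ a ∈ A, q * a = a * q) → q ∈ A)
    (htr : ∀ W W' : Subgroup Q, W ≤ A → W' ≤ A → Nat.card W = Nat.card W' →
      ∃ q : Q, W.map (MulAut.conj q).toMonoidHom = W') :
    (n = 3 ∧ (∃ f : Q →* ↥(Cfsg.semiaffineGroup (GaloisField p 3)), Function.Injective f) ∧
      (p = 2 → Nonempty (Q ≃* Cfsg.semiaffineGroup (GaloisField 2 3)) ∨
               Nonempty (Q ≃* Cfsg.affineGroup (GaloisField 2 3)))) ∨
    (n = 5 ∧ p = 2 ∧ Nonempty (Q ≃* Cfsg.semiaffineGroup (GaloisField 2 5))) := by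
  classical
  have hp2 := hp.out.two_le
  letI : CommGroup A := { (inferInstance : Group A) with mul_comm := fun a b => hAc.is_comm.comm a b }
  have hexpA : ∀ a : A, a ^ p = 1 := fun a => Subtype.ext (by rw [SubgroupClass.coe_pow, hexp _ a.2]; rfl)
  obtain ⟨H, hH⟩ := Subgroup.exists_right_complement'_of_coprime hcop
  haveI := hsolv
  let cA : H →* MulAut A := (MulAut.conjNormal (H := A)).comp H.subtype
  have hcA : ∀ (h : H) (a : A), ((cA h a : A) : Q) = (h : Q) * a * (h : Q)⁻¹ := fun h a => rfl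
  have hdisj : ∀ q : Q, q ∈ A → q ∈ H → q = 1 := fun q h1 h2 =>
    Subgroup.mem_bot.1 (hH.disjoint.le_bot ⟨h1, h2⟩)
  have hcAinj : Function.Injective cA := by
    rw [injective_iff_map_eq_one]
    intro h hh
    refine Subtype.ext (hdisj _ (hself _ fun a ha => ?_) h.2)
    have := congrArg (fun z : A => (z : Q)) (DFunLike.congr_fun hh ⟨a, ha⟩)
    rw [hcA] at this
    exact mul_inv_eq_iff_eq_mul.1 this
  have hdec : ∀ q : Q, ∃ (a : A) (h : H), q = (a : Q) * h := by
    intro q
    obtain ⟨⟨a, h⟩, hah⟩ := hH.2 q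
    exact ⟨a, h, hah.symm⟩
  have htrH : ∀ W W' : Subgroup A, Nat.card W = Nat.card W' → ∃ h : H, W.map (cA h).toMonoidHom = W' := by
    intro W W' hWW
    obtain ⟨q, hq⟩ := htr (W.map A.subtype) (W'.map A.subtype) (Subgroup.map_subtype_le W)
      (Subgroup.map_subtype_le W') (by
        rw [Subgroup.card_map_of_injective A.subtype_injective, Subgroup.card_map_of_injective A.subtype_injective, hWW])
    obtain ⟨a, h, rfl⟩ := hdec q
    refine ⟨h, Subgroup.map_injective A.subtype_injective ?_⟩
    rw [← hq, Subgroup.map_map, Subgroup.map_map]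
    congr 1
    refine MonoidHom.ext fun w => ?_
    show ((cA h w : A) : Q) = (a : Q) * h * (w : Q) * ((a : Q) * h)⁻¹
    rw [show ((cA h w : A) : Q) = (((a * cA h w * a⁻¹) : A) : Q) by rw [mul_inv_cancel_comm],
      Subgroup.coe_mul, Subgroup.coe_mul, hcA, Subgroup.coe_inv]
    group
  -- the action on planes
  letI actP : MulAction H (Planes A p) :=
    { smul := fun h W => ⟨W.1.map (cA h).toMonoidHom,
        (Subgroup.card_map_of_injective (cA h).injective).trans W.2⟩
      one_smul := fun W => Subtype.ext (by show W.1.map (cA 1).toMonoidHom = W.1; rw [map_one]; exact Subgroup.map_id _)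
      mul_smul := fun h h' W => Subtype.ext (by
        show W.1.map (cA (h * h')).toMonoidHom = (W.1.map (cA h').toMonoidHom).map (cA h).toMonoidHom
        rw [map_mul, Subgroup.map_map]; rfl) }
  haveI : MulAction.IsPretransitive H (Planes A p) := ⟨fun W W' => by
    obtain ⟨h, hh⟩ := htrH W.1 W'.1 (W.2.trans W'.2.symm)
    exact ⟨h, Subtype.ext hh⟩⟩
  haveI : Finite (Planes A p) := Subtype.finite
  have hXmul := card_planes_mul A p hexpA
  rw [hcard] at hXmul
  have hXpos : 0 < Nat.card (Planes A p) := by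
    refine Nat.pos_of_ne_zero fun h => ?_
    rw [h, zero_mul] at hXmul
    have h1 : p ^ 1 < p ^ n := Nat.pow_lt_pow_right hp2 (by omega)
    rw [pow_one] at h1
    rcases Nat.mul_eq_zero.1 hXmul.symm with h | h <;> omega
  obtain ⟨W₀⟩ : Nonempty (Planes A p) := (Nat.card_pos_iff.1 hXpos).1
  have hXdvd : Nat.card (Planes A p) ∣ Nat.card H := by
    rw [← MulAction.index_stabilizer_of_transitive H W₀]
    exact Subgroup.index_dvd_card _
  -- the linear group together with the scalars
  have hmod : ∀ v : Additive A, p • v = 0 := fun v =>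
    Additive.toMul.injective (by rw [toMul_nsmul, hexpA]; rfl)
  letI : Module (ZMod p) (Additive A) := AddCommGroup.zmodModule (n := p) (G := Additive A) hmod
  haveI : Nontrivial A := Finite.one_lt_card_iff_nontrivial.1 (by rw [hcard]; exact Nat.one_lt_pow (by omega) hp2)
  let lin : MulAut A →* (Additive A ≃ₗ[ZMod p] Additive A) := MonoidHom.mk'
    (fun φ => { (MulEquiv.toAdditive φ) with
      map_smul' := fun c x => ZMod.map_smul (MulEquiv.toAdditive φ).toAddMonoidHom c x })
    (fun φ ψ => LinearEquiv.ext fun x => by rw [LinearEquiv.mul_apply]; rfl)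
  let sc : (ZMod p)ˣ →* (Additive A ≃ₗ[ZMod p] Additive A) := MonoidHom.mk'
    (fun c => LinearEquiv.smulOfUnit c) (fun c d => LinearEquiv.ext fun x => mul_smul _ _ _)
  let big : H × (ZMod p)ˣ →* (Additive A ≃ₗ[ZMod p] Additive A) := MonoidHom.mk'
    (fun x => lin (cA x.1) * sc x.2) (fun x y => by
      show lin (cA (x.1 * y.1)) * sc (x.2 * y.2) = lin (cA x.1) * sc x.2 * (lin (cA y.1) * sc y.2)
      have hc : sc x.2 * lin (cA y.1) = lin (cA y.1) * sc x.2 :=
        LinearEquiv.ext fun v => (map_smul (lin (cA y.1)) (x.2 : ZMod p) v).symm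
      rw [map_mul, map_mul, map_mul, mul_assoc, mul_assoc, ← mul_assoc (sc x.2), hc, mul_assoc])
  haveI hbig : Group.IsSolvable big.range := Group.isSolvable_of_surjective big.rangeRestrict_surjective
  haveI : Finite big.range := Finite.of_surjective _ big.rangeRestrict_surjective
  have htrans : ∀ v w : Additive A, v ≠ 0 → w ≠ 0 → ∃ g : big.range, (g : Additive A ≃ₗ[ZMod p] Additive A) v = w := by
    intro v w hv hw
    have hv' : v.toMul ≠ 1 := hv
    have hw' : w.toMul ≠ 1 := hw
    obtain ⟨h, hh⟩ := htrH (Subgroup.zpowers v.toMul) (Subgroup.zpowers w.toMul) (by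
      rw [Nat.card_zpowers, Nat.card_zpowers, orderOf_eq_prime (hexpA _) hv', orderOf_eq_prime (hexpA _) hw'])
    rw [MonoidHom.map_zpowers] at hh
    obtain ⟨k, hk⟩ := Subgroup.mem_zpowers_iff.1 (hh.ge (Subgroup.mem_zpowers w.toMul))
    have hk0 : (k : ZMod p) ≠ 0 := by
      intro h0
      obtain ⟨m, rfl⟩ := (ZMod.intCast_zmod_eq_zero_iff_dvd _ _).1 h0
      apply hw'
      rw [← hk, zpow_mul, zpow_natCast]
      show ((cA h) v.toMul ^ p) ^ m = 1
      rw [hexpA, one_zpow]
    refine ⟨⟨_, (h, Units.mk0 _ hk0), rfl⟩, ?_⟩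
    show lin (cA h) ((k : ZMod p) • v) = w
    rw [map_smul, Int.cast_smul_eq_zsmul]
    exact Additive.toMul.injective (by rw [toMul_zsmul]; exact hk)
  rcases CfsgLib.Huppert.huppert (ρ := ({ toFun := fun g => (g : Additive A ≃ₗ[ZMod p] Additive A).toLinearMap
                                          map_one' := rfl
                                          map_mul' := fun _ _ => rfl } : Representation (ZMod p) big.range (Additive A)))
      (fun a b hab => Subtype.ext (LinearEquiv.toLinearMap_injective hab)) htrans with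
    ⟨F, hF1, hF2, e0, hsemi⟩ | hexc
  swap
  · -- exceptional cardinalities: only `81`
    rw [Nat.card_congr Additive.toMul, hcard] at hexc
    have h34 : p = 3 ∧ n = 4 := by
      simp only [Set.mem_insert_iff, Set.mem_singleton_iff] at hexc
      rcases hexc with h | h | h | h | h | h
      · have := pow_eq_prime_pow (q := 3) (k := 2) hp.out (by norm_num) (by omega) (h.trans (by norm_num)); omega
      · have := pow_eq_prime_pow (q := 5) (k := 2) hp.out (by norm_num) (by omega) (h.trans (by norm_num)); omega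
      · have := pow_eq_prime_pow (q := 7) (k := 2) hp.out (by norm_num) (by omega) (h.trans (by norm_num)); omega
      · have := pow_eq_prime_pow (q := 11) (k := 2) hp.out (by norm_num) (by omega) (h.trans (by norm_num)); omega
      · have := pow_eq_prime_pow (q := 23) (k := 2) hp.out (by norm_num) (by omega) (h.trans (by norm_num)); omega
      · exact pow_eq_prime_pow hp.out (by norm_num) (by omega) (h.trans (by norm_num))
    obtain ⟨rfl, rfl⟩ := h34
    haveI : Fact (Nat.Prime 13) := ⟨by norm_num⟩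
    norm_num at hXmul
    have hX : Nat.card (Planes A 3) = 130 := by omega
    rw [hX] at hXdvd
    exact (no_solvable_four (p := 3) (r := 13) (Or.inr ⟨rfl, rfl⟩) hcard cA hcAinj
      ((show 5 ∣ 130 by norm_num).trans hXdvd) ((show 13 ∣ 130 by norm_num).trans hXdvd)).elim
  -- semilinear maps of the standard field
  have hn0 : n ≠ 0 := by omega
  let R := GaloisField p n
  haveI : Fintype R := Fintype.ofFinite R
  let ψ : F ≃+* R := FiniteField.ringEquivOfCardEq (by
    rw [← Nat.card_eq_fintype_card, ← Nat.card_eq_fintype_card, GaloisField.card p n hn0, ← hcard,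
      ← Nat.card_congr (e0.toEquiv), Nat.card_congr Additive.toMul])
  let e : Additive A ≃+ R := e0.trans ψ.toAddEquiv
  have hsl : ∀ h : H, ∃ (a : Rˣ) (σ : R ≃+* R),
      ∀ v : A, e (Additive.ofMul (cA h v)) = (a : R) * σ (e (Additive.ofMul v)) := by
    intro h
    obtain ⟨a, σ, hs⟩ := hsemi ⟨_, (h, 1), rfl⟩
    have hs' : ∀ v : A, e0 (Additive.ofMul (cA h v)) = a * σ (e0 (Additive.ofMul v)) := by
      intro v
      rw [← hs]
      show e0 _ = e0 (lin (cA h) (((1 : (ZMod p)ˣ) : ZMod p) • Additive.ofMul v))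
      rw [Units.val_one, one_smul]
      rfl
    have ha : a ≠ 0 := by
      intro h0
      obtain ⟨v, hv⟩ := exists_ne (1 : A)
      refine hv ((cA h).injective ?_)
      rw [map_one]
      refine Additive.ofMul.injective (e0.injective ?_)
      rw [hs', h0, zero_mul, ofMul_one, map_zero]
    refine ⟨Units.mk0 (ψ a) ((map_ne_zero ψ).2 ha), (ψ.symm.trans σ).trans ψ, fun v => ?_⟩
    show ψ (e0 _) = ψ a * ψ (σ (ψ.symm (ψ (e0 _))))
    rw [hs', map_mul, ψ.symm_apply_apply]
  -- the bound
  haveI : Finite (R ≃+* R) := Finite.of_injective (fun σ : R ≃+* R => (σ : R → R)) DFunLike.coe_injective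
  let T : Rˣ × (R ≃+* R) → (A →* A) := fun x => MonoidHom.mk'
    (fun v => (e.symm ((x.1 : R) * x.2 (e (Additive.ofMul v)))).toMul)
    (fun v w => by rw [ofMul_mul, map_add, map_add, mul_add, map_add, toMul_add])
  have hTinv : ∀ W : Planes A p, ∃ x, W₀.1.map (T x) = W.1 := by
    intro W
    obtain ⟨h, hh⟩ := htrH W₀.1 W.1 (W₀.2.trans W.2.symm)
    obtain ⟨a, σ, hs⟩ := hsl h
    refine ⟨(a, σ), ?_⟩
    rw [← hh]
    congr 1
    refine MonoidHom.ext fun v => ?_
    show (e.symm ((a : R) * σ (e (Additive.ofMul v)))).toMul = cA h v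
    rw [← hs, e.symm_apply_apply]; rfl
  choose xW hxW using hTinv
  let lam : (ZMod p)ˣ → Rˣ := fun c => Units.map (algebraMap (ZMod p) R).toMonoidHom c
  have hlam : ∀ (c : (ZMod p)ˣ) (x : Rˣ × (R ≃+* R)), W₀.1.map (T (lam c * x.1, x.2)) = W₀.1.map (T x) := by
    intro c x
    have key : ∀ w : A, T (lam c * x.1, x.2) w = (T x w) ^ (c : ZMod p).val := by
      intro w
      have hc : algebraMap (ZMod p) R (c : ZMod p) = (((c : ZMod p).val : ℕ) : R) := by
        rw [← map_natCast (algebraMap (ZMod p) R), ZMod.natCast_zmod_val]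
      show (e.symm ((algebraMap (ZMod p) R (c : ZMod p) * (x.1 : R)) * _)).toMul = _
      rw [hc, mul_assoc, ← nsmul_eq_mul, map_nsmul, toMul_nsmul]
      rfl
    refine Subgroup.eq_of_le_of_card_ge ?_ ?_
    · rintro _ ⟨w, hw, rfl⟩
      exact ⟨w ^ (c : ZMod p).val, pow_mem hw _, by rw [map_pow, key]⟩
    · have inj : ∀ y : Rˣ × (R ≃+* R), Function.Injective (T y) := fun y v w hvw => by
        have h1 : e (Additive.ofMul v) = e (Additive.ofMul w) :=
          y.2.injective (y.1.isUnit.mul_left_cancel (e.symm.injective (Additive.toMul.injective hvw)))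
        exact Additive.ofMul.injective (e.injective h1)
      rw [Subgroup.card_map_of_injective (inj _), Subgroup.card_map_of_injective (inj _)]
  have hbound : Nat.card (Planes A p) * (p - 1) ≤ (p ^ n - 1) * n := by
    have hinj : Function.Injective (fun z : Planes A p × (ZMod p)ˣ =>
        ((lam z.2 * (xW z.1).1, (xW z.1).2) : Rˣ × (R ≃+* R))) := by
      rintro ⟨W, c⟩ ⟨W', c'⟩ hz
      have hW : W = W' := Subtype.ext ((hxW W).symm.trans ((((hlam c (xW W)).symm.trans
        (congrArg (fun y => W₀.1.map (T y)) hz)).trans (hlam c' (xW W'))).trans (hxW W')))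
      subst hW
      have h1 := mul_right_cancel (congrArg Prod.fst hz)
      exact Prod.ext rfl (Units.map_injective (algebraMap (ZMod p) R).injective h1)
    have := Nat.card_le_card_of_injective _ hinj
    rwa [Nat.card_prod, Nat.card_prod, Nat.card_units, Nat.card_units, Nat.card_zmod, GaloisField.card p n hn0,
      card_ringAut p n hn0] at this
  -- `p ^ (n - 1) ≤ n (p ^ 2 - 1) + 1`
  have hineq : p ^ (n - 1) ≤ n * (p ^ 2 - 1) + 1 := by
    have hpn : 0 < p ^ n - 1 := by
      have : 1 < p ^ n := Nat.one_lt_pow hn0 hp2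
      omega
    have hpp : 0 < p - 1 := by omega
    have h1 : (p ^ n - p) * (p - 1) ≤ n * ((p ^ 2 - 1) * (p ^ 2 - p)) := by
      refine Nat.le_of_mul_le_mul_left ?_ hpn
      rw [← mul_assoc, ← hXmul]
      calc _ = Nat.card (Planes A p) * (p - 1) * ((p ^ 2 - 1) * (p ^ 2 - p)) := by ring
        _ ≤ (p ^ n - 1) * n * ((p ^ 2 - 1) * (p ^ 2 - p)) := Nat.mul_le_mul_right _ hbound
        _ = _ := by ring
    have h2 : p ^ 2 - p = p * (p - 1) := by rw [Nat.mul_sub, mul_one, pow_two]
    have h3 : p ^ n - p = p * (p ^ (n - 1) - 1) := by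
      rw [Nat.mul_sub, mul_one, ← pow_succ', show n - 1 + 1 = n by omega]
    rw [h2, h3] at h1
    have h4 : p ^ (n - 1) - 1 ≤ n * (p ^ 2 - 1) := by
      refine Nat.le_of_mul_le_mul_left ?_ (show 0 < p * (p - 1) from Nat.mul_pos (by omega) hpp)
      calc p * (p - 1) * (p ^ (n - 1) - 1) = p * (p ^ (n - 1) - 1) * (p - 1) := by ring
        _ ≤ n * ((p ^ 2 - 1) * (p * (p - 1))) := h1
        _ = _ := by ring
    omega
  rcases (show n = 3 ∨ n = 4 ∨ n = 5 ∨ 6 ≤ n by omega) with h3 | h4 | h5 | h6
  rotate_left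
  · -- `n = 4`
    subst h4
    have hp3 : p ≤ 3 := by
      by_contra hh
      have h4le : 4 * p ^ 2 ≤ p ^ 3 := by rw [pow_succ p 2, mul_comm]; exact Nat.mul_le_mul_left _ (by omega)
      have : 1 ≤ p ^ 2 := Nat.one_le_pow _ _ (by omega)
      have hineq' : p ^ 3 ≤ 4 * (p ^ 2 - 1) + 1 := hineq
      omega
    haveI : Fact (Nat.Prime 7) := ⟨by norm_num⟩
    haveI : Fact (Nat.Prime 13) := ⟨by norm_num⟩
    rcases (show p = 2 ∨ p = 3 by omega) with rfl | rfl
    · norm_num at hXmul
      have hX : Nat.card (Planes A 2) = 35 := by omega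
      rw [hX] at hXdvd
      exact (no_solvable_four (p := 2) (r := 7) (Or.inl ⟨rfl, rfl⟩) hcard cA hcAinj
        ((show 5 ∣ 35 by norm_num).trans hXdvd) ((show 7 ∣ 35 by norm_num).trans hXdvd)).elim
    · norm_num at hXmul
      have hX : Nat.card (Planes A 3) = 130 := by omega
      rw [hX] at hXdvd
      exact (no_solvable_four (p := 3) (r := 13) (Or.inr ⟨rfl, rfl⟩) hcard cA hcAinj
        ((show 5 ∣ 130 by norm_num).trans hXdvd) ((show 13 ∣ 130 by norm_num).trans hXdvd)).elim
  rotate_left
  · -- `n ≥ 6`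
    exact absurd hineq (not_le.2 (arith_six hp2 h6))
  -- the permutation representation
  all_goals
    let Φ : A → Q ⧸ H := fun a => QuotientGroup.mk (a : Q)
    have hΦ : Function.Bijective Φ := by
      refine ⟨fun a b hab => ?_, fun x => ?_⟩
      · have h1 : (a : Q)⁻¹ * b ∈ H := QuotientGroup.eq.1 hab
        exact Subtype.ext (inv_mul_eq_one.1 (hdisj _ (mul_mem (inv_mem a.2) b.2) h1))
      · obtain ⟨q, rfl⟩ := QuotientGroup.mk_surjective x
        obtain ⟨a, h, rfl⟩ := hdec q
        exact ⟨a, QuotientGroup.eq.2 (by rw [inv_mul_cancel_left]; exact h.2)⟩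
    let E : (Q ⧸ H) ≃ R := (Equiv.ofBijective Φ hΦ).symm.trans (Additive.ofMul.trans e.toEquiv)
    let f0 : Q →* Equiv.Perm R := E.permCongrHom.toMonoidHom.comp (MulAction.toPermHom Q (Q ⧸ H))
    have hf0 : ∀ (a : A) (h : H) (u : Rˣ) (σ : R ≃+* R),
        (∀ v : A, e (Additive.ofMul (cA h v)) = (u : R) * σ (e (Additive.ofMul v))) →
        ∀ x : R, f0 ((a : Q) * h) x = (u : R) * σ x + e (Additive.ofMul a) := by
      intro a h u σ hs x
      have hEΦ : ∀ z : A, E (Φ z) = e (Additive.ofMul z) := fun z => by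
        show e (Additive.ofMul ((Equiv.ofBijective Φ hΦ).symm (Φ z))) = _
        rw [show Φ z = (Equiv.ofBijective Φ hΦ) z from rfl, Equiv.symm_apply_apply]
      obtain ⟨z, rfl⟩ : ∃ z : A, e (Additive.ofMul z) = x :=
        ⟨(e.symm x).toMul, e.apply_symm_apply x⟩
      show E (((a : Q) * h) • E.symm (e (Additive.ofMul z))) = _
      rw [← hEΦ z, E.symm_apply_apply, hEΦ z,
        show ((a : Q) * h) • Φ z = Φ (a * cA h z) from ?_, hEΦ, ofMul_mul, map_add, hs, add_comm]
      refine QuotientGroup.eq.2 ?_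
      show ((a : Q) * h * z)⁻¹ * ((a * cA h z : A) : Q) ∈ H
      rw [Subgroup.coe_mul, hcA, show ((a : Q) * h * z)⁻¹ * ((a : Q) * (h * z * (h : Q)⁻¹)) = (h : Q)⁻¹ by group]
      exact inv_mem h.2
    have hf0mem : ∀ q : Q, f0 q ∈ Cfsg.semiaffineGroup R := by
      intro q
      obtain ⟨a, h, rfl⟩ := hdec q
      obtain ⟨u, σ, hs⟩ := hsl h
      exact ⟨u, _, σ, hf0 a h u σ hs⟩
    have hf0inj : Function.Injective f0 := by
      rw [injective_iff_map_eq_one]
      intro q hq
      obtain ⟨a, h, rfl⟩ := hdec q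
      obtain ⟨u, σ, hs⟩ := hsl h
      have h0 := hf0 a h u σ hs 0
      rw [hq, Equiv.Perm.coe_one, id, map_zero, mul_zero, zero_add] at h0
      have ha : a = 1 := Additive.ofMul.injective (e.injective (by rw [← h0, ofMul_one, map_zero]))
      subst ha
      have h1 : h = 1 := hcAinj (MulEquiv.ext fun v => Additive.ofMul.injective (e.injective (by
        have := hf0 1 h u σ hs (e (Additive.ofMul v))
        rw [hq, ofMul_one, map_zero, add_zero, Equiv.Perm.coe_one, id, ← hs] at this
        rw [← this, map_one]; rfl)))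
      subst h1
      simp
    have hcardQ : Nat.card Q = p ^ n * Nat.card H := by rw [← hcard, hH.card_mul]
  · -- `n = 3`
    subst h3
    refine Or.inl ⟨rfl, ⟨f0.codRestrict _ hf0mem, fun x y hxy => hf0inj (congrArg Subtype.val hxy)⟩, ?_⟩
    rintro rfl
    -- transitivity on the seven points
    let Pt := {v : A // v ≠ 1}
    letI actV : MulAction H Pt :=
      { smul := fun h v => ⟨cA h v.1, fun e' => v.2 ((cA h).injective (e'.trans (map_one (cA h)).symm))⟩
        one_smul := fun v => Subtype.ext (by show cA 1 v.1 = v.1; rw [map_one]; rfl)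
        mul_smul := fun h h' v => Subtype.ext (by show cA (h * h') v.1 = cA h (cA h' v.1); rw [map_mul]; rfl) }
    haveI : MulAction.IsPretransitive H Pt := ⟨fun v w => by
      obtain ⟨h, hh⟩ := htrH (Subgroup.zpowers v.1) (Subgroup.zpowers w.1) (by
        rw [Nat.card_zpowers, Nat.card_zpowers, orderOf_eq_prime (hexpA _) v.2, orderOf_eq_prime (hexpA _) w.2])
      rw [MonoidHom.map_zpowers] at hh
      obtain ⟨k, hk⟩ := Subgroup.mem_zpowers_iff.1 (hh.ge (Subgroup.mem_zpowers w.1))
      refine ⟨h, Subtype.ext ?_⟩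
      show cA h v.1 = w.1
      rcases Int.even_or_odd k with ⟨m, rfl⟩ | ⟨m, rfl⟩
      · exfalso
        apply w.2
        rw [← hk, ← two_mul, zpow_mul, zpow_ofNat]
        show (cA h v.1 ^ 2) ^ m = 1
        rw [hexpA, one_zpow]
      · rw [← hk, zpow_add, zpow_mul, zpow_one, zpow_ofNat]
        show _ = (cA h v.1 ^ 2) ^ m * cA h v.1
        rw [hexpA, one_zpow, one_mul]⟩
    obtain ⟨v₀, hv₀⟩ := exists_ne (1 : A)
    have h7 : 7 ∣ Nat.card H := by
      have h := (MulAction.index_stabilizer_of_transitive H (⟨v₀, hv₀⟩ : Pt))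
      haveI := Fintype.ofFinite A
      rw [Nat.card_eq_fintype_card (α := Pt), Fintype.card_subtype_compl, Fintype.card_subtype_eq,
        ← Nat.card_eq_fintype_card, hcard] at h
      exact (show 7 = _ from h.symm.trans rfl) ▸ Subgroup.index_dvd_card _
    have hHpos : 0 < Nat.card H := Nat.card_pos
    by_cases haff : ∀ h : H, ∃ u : Rˣ, ∀ v : A, e (Additive.ofMul (cA h v)) = (u : R) * e (Additive.ofMul v)
    · right
      have hmem : ∀ q : Q, f0 q ∈ Cfsg.affineGroup R := by
        intro q
        obtain ⟨a, h, rfl⟩ := hdec q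
        obtain ⟨u, hs⟩ := haff h
        exact ⟨u, _, hf0 a h u (RingEquiv.refl R) hs⟩
      refine nonempty_mulEquiv (f0.codRestrict _ hmem) (fun x y hxy => hf0inj (congrArg Subtype.val hxy)) ?_
      refine (card_affine_le 2 3 (by omega)).trans ?_
      rw [hcardQ]
      have := Nat.le_of_dvd hHpos h7
      norm_num
      omega
    · left
      push Not at haff
      obtain ⟨h, hh⟩ := haff
      obtain ⟨u, σ, hs⟩ := hsl h
      have hσ : σ ≠ 1 := by
        rintro rfl
        obtain ⟨v, hv⟩ := hh u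
        exact hv (hs v)
      have hpow : ∀ k : ℕ, ∃ b : R, ∀ v : A,
          e (Additive.ofMul (cA (h ^ k) v)) = b * (σ ^ k) (e (Additive.ofMul v)) := by
        intro k
        induction k with
        | zero => exact ⟨1, fun v => by simp⟩
        | succ k ih =>
          obtain ⟨b, hb⟩ := ih
          refine ⟨b * (σ ^ k) (u : R), fun v => ?_⟩
          rw [pow_succ, map_mul, MulAut.mul_apply, hb, hs, map_mul, pow_succ, mul_assoc]
          rfl
      have h3dvd : 3 ∣ Nat.card H := by
        have hord : orderOf σ = 3 := by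
          haveI : Fact (Nat.Prime 3) := ⟨by norm_num⟩
          refine orderOf_eq_prime ?_ hσ
          have := pow_card_eq_one' (G := (R ≃+* R)) (x := σ)
          rwa [card_ringAut 2 3 (by omega)] at this
        obtain ⟨b, hb⟩ := hpow (orderOf h)
        rw [pow_orderOf_eq_one, map_one] at hb
        have hb1 : b = 1 := by
          have := hb (e.symm 1).toMul
          rw [MulAut.one_apply, ofMul_toMul, e.apply_symm_apply, map_one, mul_one] at this
          exact this.symm
        have hone : σ ^ orderOf h = 1 := RingEquiv.ext fun x => by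
          have := hb (e.symm x).toMul
          rw [MulAut.one_apply, ofMul_toMul, e.apply_symm_apply, hb1, one_mul] at this
          exact this.symm
        exact hord ▸ (orderOf_dvd_of_pow_eq_one hone).trans (orderOf_dvd_natCard h)
      refine nonempty_mulEquiv (f0.codRestrict _ hf0mem) (fun x y hxy => hf0inj (congrArg Subtype.val hxy)) ?_
      refine (card_semiaffine_le 2 3 (by omega)).trans ?_
      rw [hcardQ]
      have := Nat.le_of_dvd hHpos (Nat.Coprime.mul_dvd_of_dvd_of_dvd (by norm_num) h7 h3dvd)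
      norm_num
      omega
  · -- `n = 5`
    subst h5
    have hp' : p = 2 := by
      by_contra hh
      have h3le : 3 ≤ p := by omega
      have h9 : 9 ≤ p ^ 2 := by nlinarith
      have hineq' : p ^ 4 ≤ 5 * (p ^ 2 - 1) + 1 := hineq
      have h44 : 9 * p ^ 2 ≤ p ^ 4 := by
        rw [show p ^ 4 = p ^ 2 * p ^ 2 by ring]; exact Nat.mul_le_mul_right _ h9
      omega
    subst hp'
    refine Or.inr ⟨rfl, rfl, nonempty_mulEquiv (f0.codRestrict _ hf0mem)
      (fun x y hxy => hf0inj (congrArg Subtype.val hxy)) ?_⟩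
    refine (card_semiaffine_le 2 5 (by omega)).trans ?_
    rw [hcardQ]
    norm_num at hXmul
    have hX : Nat.card (Planes A 2) = 155 := by omega
    rw [hX] at hXdvd
    have := Nat.le_of_dvd Nat.card_pos hXdvd
    norm_num
    omega

end Main

end CfsgLib.EqualSubAffine
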